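import Cfsg.Agent.MQ.D3a

/-! Regular parts of irreducible characters of small defect: generic tools. -/

set_option autoImplicit false
set_option linter.unusedSectionVars false

namespace MQ.D3
open Cfsg H8 L Subgroup
open scoped ComplexConjugate Classical

variable {G : Type*} [Group G] [Fintype G] {p : ℕ} [hp : Fact p.Prime]

theorem pow_dvd_of_II {k : ℕ} {z : ℤ} {u : ℂ} (hu : II p u) (h : (z : ℂ) = (p : ℂ) ^ k * u) :
    (p : ℤ) ^ k ∣ z := by
  induction k generalizing z with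
  | zero => simp
  | succ k ih =>
    have h1 : MM p (z : ℂ) := by
      rw [h, pow_succ', mul_assoc]
      exact MM_p.mul_II (((II_natCast p).pow k).mul hu)
    obtain ⟨t, rfl⟩ := MM_intCast_iff.mp h1
    rw [pow_succ']
    refine mul_dvd_mul_left _ (ih ?_)
    have h0 : (p : ℂ) ≠ 0 := Nat.cast_ne_zero.mpr hp.out.ne_zero
    apply mul_left_cancel₀ h0
    push_cast at h
    rw [h]; ring

theorem exact_of_UU {k d : ℕ} {u : ℂ} (hu : UU p u) (h : (d : ℂ) = (p : ℂ) ^ k * u) :
    p ^ k ∣ d ∧ ¬ p ^ (k + 1) ∣ d := by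
  refine ⟨?_, ?_⟩
  · have := pow_dvd_of_II (z := d) hu.II (by simpa using h)
    exact_mod_cast this
  · rintro ⟨t, rfl⟩
    have h0 : (p : ℂ) ^ k ≠ 0 := pow_ne_zero _ (Nat.cast_ne_zero.mpr hp.out.ne_zero)
    have : u = p * t := by
      apply mul_left_cancel₀ h0
      push_cast at h
      rw [← h]; ring
    exact hu.not_MM (this ▸ MM_p.mul_II (II_natCast t))

/-- The `p`-regular part of a function. -/
noncomputable def cf (p : ℕ) [Fact p.Prime] (f : G → ℂ) : G → ℂ := fun g => regInd p g * f g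

theorem cf_class {f : G → ℂ} (hf : IsClassFunction G f) : IsClassFunction G (cf p f) := by
  intro g h; simp only [cf, regInd_class g h, hf g h]

theorem cf_reg (f : G → ℂ) {g : G} (h : ¬ p ∣ orderOf g) : cf p f g = f g := by
  simp [cf, regInd, Reg_iff_not_dvd.mpr h]

theorem cf_sing (f : G → ℂ) {g : G} (h : p ∣ orderOf g) : cf p f g = 0 := by
  simp [cf, regInd, mt Reg_iff_not_dvd.mp (not_not.mpr h)]

theorem cf_one (f : G → ℂ) : cf p f 1 = f 1 :=
  cf_reg f (by rw [orderOf_one]; exact hp.out.one_lt.ne' ∘ Nat.dvd_one.mp)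

theorem inner_cf_cf (f h : G → ℂ) : classInner (cf p f) (cf p h) = classInner (cf p f) h := by
  unfold classInner cf regInd
  congr 1
  refine Finset.sum_congr rfl fun g _ => ?_
  split_ifs <;> simp

theorem inner_cf_symm (f h : G → ℂ) : classInner (cf p f) h = conj (classInner (cf p h) f) := by
  rw [conj_classInner]
  unfold classInner cf regInd
  congr 1
  refine Finset.sum_congr rfl fun g _ => ?_
  split_ifs <;> simp

/-- The central character attached to the regular part of `conj χ`. -/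
noncomputable def ww (p : ℕ) [Fact p.Prime] (χ : IrrCharacter G) : IrrCharacter G → ℂ :=
  om (cf p fun g => conj (χ.1 g))

theorem ww_eq (χ ψ : IrrCharacter G) :
    ww p χ ψ * deg ψ = Nat.card G * classInner (cf p ψ.1) χ.1 := by
  unfold ww om classInner cf
  rw [← deg_eq, div_mul_cancel₀ _ (irr_apply_one_ne_zero ψ.2), ← mul_assoc,
    mul_inv_cancel₀ card_ne_zero_complex, one_mul]
  exact Finset.sum_congr rfl fun g _ => by ring

theorem cfc_class (χ : IrrCharacter G) : IsClassFunction G (cf p fun g => conj (χ.1 g)) :=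
  cf_class (char_isClassFunction (char_conj (irr_isCharacter χ.2)))

theorem cfc_int (χ : IrrCharacter G) (g : G) : IsIntegral ℤ (cf p (fun g => conj (χ.1 g)) g) :=
  (isIntegral_regInd g).mul (char_isIntegral (char_conj (irr_isCharacter χ.2)) g)

theorem II_ww (χ ψ : IrrCharacter G) : II p (ww p χ ψ) :=
  II_om_of_isIntegral (cfc_class χ) (cfc_int χ) ψ

/-- Block closure. -/
theorem close (χ : IrrCharacter G) {φ ψ : IrrCharacter G} (h1 : ¬ MM p (ww p χ φ))
    (h2 : classInner (cf p φ.1) ψ.1 ≠ 0) : UU p (ww p χ ψ) := by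
  refine (II_ww χ ψ).UU fun hM => h2 ?_
  obtain ⟨he, -⟩ := (IZ_om (p := p) (cfc_class (p := p) χ)
    (fun g => II_of_isIntegral (cfc_int χ g))).exists_idem (II_ww χ)
  have hee := idem_mul_self (p := p) (ww p χ)
  change IZ p (fun χ_1 => if MM p (ww p χ χ_1) then (0 : ℂ) else 1) at he
  set e := fun χ_1 => if MM p (ww p χ χ_1) then (0 : ℂ) else 1 with hedef
  have hc := cf_class (p := p) (irr_class φ)
  have hP : PP e (cf p φ.1) = cf p φ.1 := by
    funext g
    obtain ⟨u, y, hu, hy, huy, rfl, -⟩ := exists_decomp (p := p) g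
    by_cases h : u = 1
    · subst h
      have h2 : PP e (φ.1 - cf p φ.1) (1 * y) = 0 := by
        refine he.PP_vanish hee (fun g k => ?_) PElt_one (fun x hx _ => ?_) hy huy
        · simp only [Pi.sub_apply, hc g k, irr_class φ g k]
        · simp [cf, regInd, hx]
      rw [PP_sub, PP_irr, sub_eq_zero] at h2
      rw [← h2]; simp [cf, regInd, hy, hedef, h1]
    · have h3 : ∀ x, Reg p x → Commute u x → cf p φ.1 (u * x) = 0 := fun x hx hux => by
        simp [cf, regInd, Reg_mul_iff hu hx hux, h]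
      rw [he.PP_vanish hee hc hu h3 hy huy, h3 y hy huy]
  have h2 := classInner_PP e (cf p φ.1) ψ
  rw [hP] at h2
  rw [h2]; simp [hedef, hM]

theorem coef {b c m : ℕ} (hG : Nat.card G = p ^ (b + c) * m) (hm : ¬ p ∣ m)
    {χ : IrrCharacter G} (hχ : p ^ b ∣ deg χ) (ψ : IrrCharacter G) :
    ∃ n : ℤ, (p : ℂ) ^ c * classInner (cf p χ.1) ψ.1 = n := by
  have hf := char_mul (irr_isCharacter χ.2) (char_conj (irr_isCharacter ψ.2))
  obtain ⟨a, ha⟩ := reg_int p hf
  have h0 := card_ne_zero_complex (G := G)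
  have e1 : Nat.card G * classInner (cf p χ.1) ψ.1 = a := by
    rw [← ha, classInner, ← mul_assoc, mul_inv_cancel₀ h0, one_mul]
    exact Finset.sum_congr rfl fun g _ => by simp [cf, mul_assoc]
  have h1 : (p : ℤ) ^ b ∣ a := by
    obtain ⟨r, hr⟩ := hχ
    refine pow_dvd_of_II ((II_ww (p := p) ψ χ).mul (II_natCast r)) ?_
    rw [← e1, ← ww_eq, hr]; push_cast; ring
  have h2 : m ∣ a.natAbs := by
    rw [Nat.dvd_iff_prime_pow_dvd_dvd]
    intro q k hq ⟨t, ht⟩
    rcases k with _ | k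
    · simp
    have : Fact q.Prime := ⟨hq⟩
    have hpq : p ≠ q := by
      rintro rfl
      exact hm (ht ▸ (dvd_pow_self p k.succ_ne_zero).mul_right t)
    have h3 := frob (q := q) hpq hf
    rw [ha] at h3
    have h4 := pow_dvd_of_II (k := k + 1) (z := a) (h3.mul (II_natCast (p ^ (b + c) * t))) (by
      have h5 : (Nat.card G : ℂ) = (q : ℂ) ^ (k + 1) * (p ^ (b + c) * t : ℕ) := by
        rw [hG, ht]; push_cast; ring
      rw [mul_left_comm, ← h5, div_mul_cancel₀ _ h0])
    rw [← Int.natCast_dvd]; exact_mod_cast h4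
  have h3 : ((p ^ b * m : ℕ) : ℤ) ∣ a := by
    rw [Int.natCast_dvd]
    refine Nat.Coprime.mul_dvd_of_dvd_of_dvd
      (((Nat.Prime.coprime_iff_not_dvd hp.out).mpr hm).pow_left b) ?_ h2
    rw [← Int.natCast_dvd]; exact_mod_cast h1
  obtain ⟨n, hn⟩ := h3
  refine ⟨n, ?_⟩
  apply mul_left_cancel₀ h0
  rw [mul_left_comm, e1, hn, hG]; push_cast; ring

theorem sum_sq {c : ℕ} {χ φ : IrrCharacter G} {n n' : IrrCharacter G → ℤ}
    (hn : ∀ ψ : IrrCharacter G, (p : ℂ) ^ c * classInner (cf p χ.1) ψ.1 = n ψ)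
    (hn' : ∀ ψ : IrrCharacter G, (p : ℂ) ^ c * classInner (cf p φ.1) ψ.1 = n' ψ) :
    ∑ ψ, n ψ * n' ψ = p ^ c * n φ := by
  have h1 := classInner_eq_sum_int (θ := ((p : ℂ) ^ c) • cf p χ.1) (φ := ((p : ℂ) ^ c) • cf p φ.1)
    (c := n) (d := n') (fun g h => by simp [cf_class (irr_class φ) g h])
    (fun ψ => by rw [classInner_smul_left, hn]) (fun ψ => by rw [classInner_smul_left, hn'])
  rw [classInner_smul_left, classInner_smul_right, inner_cf_cf] at h1
  simp only [map_pow, map_natCast] at h1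
  rw [hn] at h1
  exact_mod_cast h1.symm

theorem coef_symm {c : ℕ} {χ φ : IrrCharacter G} {n n' : ℤ}
    (hn : (p : ℂ) ^ c * classInner (cf p χ.1) φ.1 = n)
    (hn' : (p : ℂ) ^ c * classInner (cf p φ.1) χ.1 = n') : n' = n := by
  have := congrArg conj hn
  rw [map_mul, ← inner_cf_symm] at this
  simp only [map_pow, map_natCast, map_intCast] at this
  exact_mod_cast hn'.symm.trans this

theorem expand {c : ℕ} {χ : IrrCharacter G} {n : IrrCharacter G → ℤ}
    (hn : ∀ ψ : IrrCharacter G, (p : ℂ) ^ c * classInner (cf p χ.1) ψ.1 = n ψ) (g : G) :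
    (p : ℂ) ^ c * cf p χ.1 g = ∑ ψ, (n ψ : ℂ) * ψ.1 g := by
  rw [classFun_apply_eq_sum (cf_class (irr_class χ)), Finset.mul_sum]
  exact Finset.sum_congr rfl fun ψ _ => by rw [← mul_assoc, hn]

/-- If the central character value is a unit and the coefficient is prime to `p`, the degree has
the prescribed `p`-part. -/
theorem deg_of_UU {b c m : ℕ} (hG : Nat.card G = p ^ (b + c) * m) (hm : ¬ p ∣ m)
    {χ ψ : IrrCharacter G} {n : ℤ} (hn : (p : ℂ) ^ c * classInner (cf p ψ.1) χ.1 = n)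
    (hpn : ¬ (p : ℤ) ∣ n) (hU : UU p (ww p χ ψ)) : p ^ b ∣ deg ψ ∧ ¬ p ^ (b + 1) ∣ deg ψ := by
  have hu : UU p (n : ℂ) := (II_intCast n).UU (mt MM_intCast_iff.mp hpn)
  refine exact_of_UU (((UU_natCast hm).mul hu).mul hU.inv) ?_
  have h := ww_eq (p := p) χ ψ
  rw [hG] at h
  push_cast at h
  rw [← hn]
  have := hU.ne_zero
  field_simp
  linear_combination h

theorem UU_of_deg {b c m : ℕ} (hG : Nat.card G = p ^ (b + c) * m) (hm : ¬ p ∣ m)
    {χ ψ : IrrCharacter G} {n : ℤ} (hn : (p : ℂ) ^ c * classInner (cf p ψ.1) χ.1 = n)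
    (hpn : ¬ (p : ℤ) ∣ n) (h1 : p ^ b ∣ deg ψ) (h2 : ¬ p ^ (b + 1) ∣ deg ψ) :
    UU p (ww p χ ψ) := by
  have hu : UU p (n : ℂ) := (II_intCast n).UU (mt MM_intCast_iff.mp hpn)
  obtain ⟨r, hr⟩ := h1
  have h3 : ¬ p ∣ r := fun ⟨t, ht⟩ => h2 ⟨t, by rw [hr, ht]; ring⟩
  have h := ww_eq (p := p) χ ψ
  rw [hG, hr] at h
  push_cast at h
  have h0 : (p : ℂ) ≠ 0 := Nat.cast_ne_zero.mpr hp.out.ne_zero
  have h4 := (UU_natCast (p := p) h3).ne_zero
  have : ww p χ ψ = m * n * (r : ℂ)⁻¹ := by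
    rw [← hn]
    field_simp
    apply mul_left_cancel₀ (pow_ne_zero b h0)
    linear_combination h
  rw [this]
  exact ((UU_natCast hm).mul hu).mul (UU_natCast h3).inv

theorem ne_zero_of_UU {χ ψ : IrrCharacter G} (hU : UU p (ww p χ ψ)) :
    classInner (cf p ψ.1) χ.1 ≠ 0 := fun h => by
  have h1 := ww_eq (p := p) χ ψ
  rw [h, mul_zero] at h1
  exact mul_ne_zero hU.ne_zero (Nat.cast_ne_zero.mpr (deg_pos ψ).ne') h1

/-- A generalized character vanishing on `p`-singular elements has degree divisible by `|G|_p`. -/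
theorem dvd_of_vanish {θ : G → ℂ} (hθ : IsGeneralizedCharacter G θ) {a : ℕ}
    (ha : p ^ a ∣ Nat.card G) (h : ∀ g, p ∣ orderOf g → θ g = 0) {z : ℤ} (hz : θ 1 = z) :
    (p : ℤ) ^ a ∣ z := by
  obtain ⟨K, hK⟩ := Sylow.exists_subgroup_card_pow_prime p ha
  obtain ⟨k, hk⟩ := genChar_classInner_int (genChar_restrict hθ K) genChar_one
  refine ⟨k, ?_⟩
  unfold classInner at hk
  rw [Finset.sum_eq_single 1, hK] at hk
  · have h0 : (p : ℂ) ≠ 0 := Nat.cast_ne_zero.mpr hp.out.ne_zero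
    simp only [OneMemClass.coe_one, hz, Pi.one_apply, map_one, mul_one] at hk
    push_cast at hk
    field_simp at hk
    exact_mod_cast hk
  · intro x _ hx
    have h1 := orderOf_dvd_natCard x
    rw [hK, Nat.dvd_prime_pow hp.out] at h1
    obtain ⟨j, -, hj⟩ := h1
    rcases j with _ | j
    · exact (hx (orderOf_eq_one_iff.mp hj)).elim
    · simp only [h x (by rw [Subgroup.orderOf_coe, hj]; exact dvd_pow_self _ j.succ_ne_zero),
        zero_mul]
  · simp

end MQ.D3
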