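import Cfsg.Agent.MQ.Ty
import Cfsg.Agent.MQ.L23

/-! Simple groups of order 244823040 have no element of order 77. -/

set_option autoImplicit false
set_option linter.unusedSectionVars false

namespace MQ.Lb
open Cfsg H8 H2 Subgroup

variable {G : Type*} [Group G] [Fintype G] {x y : G}

/-- the local data at 23 -/
structure Lx (x : G) : Prop where
  hN : Nat.card G = 244823040
  hx : DefOne 23 x
  vx : hx.V = ⊥
  ex : Nat.card hx.H = 11

namespace Lx
variable (L : Lx x)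
include L

/-- values at `x` are read off from the degree -/
theorem xt {χ : IrrCharacter G} (h1 : χ ≠ one1 G) : χ.1 x + χ.1 x⁻¹ = tr x χ ∧
    tr x χ ∈ [(-2 : ℤ), -1, 0, 1, 2] ∧ ((deg χ : ℤ) + 11 * tr x χ) % 23 = 0 ∧
    ∀ a : ℤ, tr x χ = 2 * a → ∀ i : ZMod 23, i ≠ 0 → χ.1 (xp x i) = a := by
  obtain ⟨T⟩ := exists_gen L.hx (n := 10) L.ex
  have t : T.Two := T.two L.ex rfl (by decide)
  by_cases h2 : ∃ j, T.c j = χ
  · obtain ⟨j, rfl⟩ := h2
    have a := T.mod j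
    have e : tr x (T.c j) = 2 * T.s j := tr_eq' (T.val_x j)
    refine ⟨by rw [e, T.val_x j, val_inv (T.val_x j)]; push_cast; ring, ?_, ?_, fun b hb i hi => ?_⟩
    · rcases T.s_eq j with e' | e' <;> simp [e, e']
    · rcases T.s_eq j with e' | e' <;> rw [e'] at a <;> omega
    · rw [T.val' j hi, show b = T.s j by omega]
  by_cases h3 : χ ∈ T.X
  · have a := T.mod0
    have e : tr x χ = T.s0 := tr_eq (t.tr h3)
    refine ⟨by rw [e, t.tr h3], ?_, ?_, fun b hb i hi => ?_⟩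
    · rcases T.s0_eq with e' | e' <;> simp [e, e']
    · rw [T.deg_X h3]
      rcases T.s0_eq with e' | e' <;> rw [e'] at a <;> omega
    · rcases T.s0_eq with e' | e' <;> omega
  · have o := fun i hi => T.other' L.vx h1 (fun j e => h2 ⟨j, e⟩) h3 (i := i) hi
    have z : χ.1 x = (0 : ℤ) := by simpa [xp_one] using o 1 one_ne_zero
    have e : tr x χ = 2 * 0 := tr_eq' z
    have a := dvd_deg_of_zero χ L.hx.pow_p (by simpa using z)
    refine ⟨by rw [e, z, val_inv z]; simp, by simp [e], by omega, fun b hb i hi => ?_⟩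
    rw [o i hi, show b = 0 by omega]; simp

theorem gen_x {p : ℕ} [Fact p.Prime] {z : G} {h : DefOne p z} {n : ℕ} (T : Gen h n)
    (hp : p ≠ 23) : 2 + ∑ j, T.s j * tr x (T.c j) + T.s0 * tr x T.E = 0 := by
  have o : ¬ p ∣ orderOf x := fun e => hp ((Nat.prime_dvd_prime_iff_eq Fact.out Fact.out).1
    (L.hx.ord ▸ e))
  have a := T.lin x o
  have b := T.lin x⁻¹ (by rwa [orderOf_inv])
  have : (2 : ℂ) + ∑ j, T.s j * (tr x (T.c j) : ℂ) + T.s0 * tr x T.E = 0 := by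
    simp only [← (L.xt (T.ne_one _)).1, ← (L.xt (T.X1 _ T.E_mem)).1, mul_add,
      Finset.sum_add_distrib]
    linear_combination a + b
  exact_mod_cast this

/-- the bound at the elements of order 11 for characters that are constant on `⟨x⟩ - 1` -/
theorem norm_le (χ : IrrCharacter G) {a m : ℤ} (ha : ∀ i : ZMod 23, i ≠ 0 → χ.1 (xp x i) = a)
    (hm : deg χ + 22 * a = 23 * m) {g : G} (hg : g ^ 11 = 1) (h1 : g ≠ 1) : ‖χ.1 g‖ ≤ |m| := by
  classical
  obtain ⟨w, hw⟩ := exists_prime_orderOf_dvd_card' (G := Nx x) 11 (by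
    rw [L.hx.card_Nx, L.ex]; exact dvd_mul_left _ _)
  rw [← orderOf_coe] at hw
  obtain ⟨c, hc⟩ := H9.exists_conj_mem_zpowers (m := 22256640) L.hN (by norm_num) hw hg
  have hn : c * g * c⁻¹ ∈ Nx x := zpowers_le.2 w.2 hc
  have hn' : c * g * c⁻¹ ∉ Cx x := fun e => by
    have e1 := orderOf_dvd_natCard (⟨_, e⟩ : Cx x)
    rw [L.hx.card_Cx, L.vx, card_bot, orderOf_dvd_iff_pow_eq_one, Subtype.ext_iff,
      SubmonoidClass.coe_pow, OneMemClass.coe_one, conj_pow, conj_eq_one_iff] at e1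
    exact h1 (by simpa using pow_gcd_eq_one.2 ⟨hg, e1⟩)
  have h2 := norm_sum_coset_le (irr_isCharacter χ.2) (zpowers x) hn
  have h3 : (deg χ : ℂ) + ((23 : ℕ) - 1) * a = (23 : ℕ) * m := by
    have : (deg χ : ℂ) + 22 * a = 23 * m := by exact_mod_cast hm
    push_cast; linear_combination this
  rw [sum_coset L.hx χ hn hn', sum_zpowers_const L.hx χ ha, h3, norm_mul, norm_mul,
    Complex.norm_intCast, val_conj χ (isConj_iff.2 ⟨c, rfl⟩)] at h2
  exact_mod_cast le_of_mul_le_mul_left h2 (by norm_num)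

end Lx

/-- signed degrees and traces of the non-exceptional characters -/
def NE : List (ℤ × ℤ) := [(-69, 0), (92, 0), (-160, 2), (-230, 0), (288, 1), (414, 0), (540, -1),
  (-552, 0), (736, 0), (-1035, 0), (1380, 0), (-1840, 0), (-2484, 0), (3312, 0), (-4416, 0),
  (5888, 0), (6210, 0), (-8280, 0), (11040, 0), (-13824, -2), (-14720, 0)]
/-- the same for `e = 2` -/
def E2 : List (ℤ × ℤ) := [(-23, 0), (138, 0), (-184, 0), (-345, 0), (460, 0), (-576, -2), (621, 0),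
  (-828, 0), (-1024, -1), (-1080, 2), (1104, 0), (-1472, 0), (-1920, 1), (2070, 0), (-2760, 0),
  (3680, 0), (4968, 0), (-6624, 0), (8832, 0), (-11776, 0), (-12420, 0)]
/-- the same for `e = 3` -/
def E3 : List (ℤ × ℤ) := [(-24, -2), (-45, 2), (46, 0), (-80, 1), (-115, 0), (207, 0), (-276, 0),
  (368, 0), (690, 0), (-920, 0), (-1242, 0), (1656, 0), (-2208, 0), (2944, 0), (3105, 0),
  (3840, -2), (-4140, 0), (5520, 0), (-6912, -1), (-7360, 0), (-9936, 0), (13248, 0)]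

theorem chk1 : ∀ d ∈ L23.dv, 3179520 % d = 0 → 14 < d → d * d ≤ 244823040 →
    ∀ t ∈ [(-2 : ℤ), -1, 0, 1, 2], ((d : ℤ) + 11 * t) % 23 = 0 → ∀ s ∈ [(1 : ℤ), -1],
    ((s * d - 1) % 7 = 0 → (s * d, s * t) ∈ NE) ∧ ((s * d + 2) % 7 = 0 → (s * d, s * t) ∈ E2) ∧
    ((s * d + 3) % 7 = 0 → (s * d, s * t) ∈ E3) := by decide +kernel

theorem chk2 : ∀ a ∈ NE, ∀ b ∈ E2, 1 + a.1 + b.1 = 0 → 2 + a.2 + b.2 ≠ 0 := by decide +kernel

theorem chk3 : ∀ a ∈ NE, ∀ a' ∈ NE, ∀ b ∈ E3, 1 + (a.1 + a'.1) + b.1 = 0 →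
    2 + (a.2 + a'.2) + b.2 = 0 → b = (-24, -2) := by decide +kernel

theorem chk6 : ∀ l ∈ L23.dv, 3179520 % l = 0 → l % 7 = 6 →
    (∀ a ∈ NE, l % a.1.natAbs = 0 → 0 ≤ a.2) ∨ (∀ a ∈ NE, l % a.1.natAbs = 0 → a.1 % 2 = 0) := by
  decide +kernel

theorem kill (L : Lx x) (k : DefOne 11 y) {V : Subgroup G} (hy : y ∈ V) (E : IrrCharacter G)
    (h1 : E ≠ one1 G) (hd : deg E = 24) (ht : tr x E = 2) {β : V → ℂ} (hβ : IsCharacter V β)
    (hr : ∀ v : V, E.1 v = 7 * β v + 3) : False := by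
  classical
  have hb : ∀ i : ZMod 11, i ≠ 0 → ‖E.1 (xp y i)‖ ≤ 2 := fun i hi => by
    have := L.norm_le E (a := 1) (m := 2) ((L.xt h1).2.2.2 1 (by omega)) (by rw [hd]; norm_num)
      (g := xp y i) (orderOf_dvd_iff_pow_eq_one.1 (k.orderOf_xp hi).dvd)
      (fun e => hi (k.xp_eq_one_iff.1 e))
    simpa using this
  obtain ⟨n, hn⟩ := char_apply_one (k.char_eigenspace (irr_isCharacter E.2) 1)
  simp only [OneMemClass.coe_one, mul_one] at hn
  have hn' : ∑ i : ZMod 11, psi 11 (-i) * E.1 (xp y i) = 11 * n := by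
    rw [← hn]; push_cast; ring
  have hm : ∀ i : ZMod 11, xp y i ∈ V := fun i => pow_mem hy _
  have h0 : ∑ i : ZMod 11, psi 11 (-i) = 0 := by
    have := sum_psi_mul (p := 11) (-1)
    rw [if_neg (by decide)] at this
    simpa using this
  have h2 : (7 : ℤ) * ∑ i : ZMod 11, psi 11 (-i) * β ⟨_, hm i⟩ = (11 * n : ℤ) := by
    have : ∀ i : ZMod 11, psi 11 (-i) * E.1 (xp y i) =
        7 * (psi 11 (-i) * β ⟨_, hm i⟩) + 3 * psi 11 (-i) := fun i => by
      rw [hr ⟨_, hm i⟩]; ring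
    simp only [this, Finset.sum_add_distrib, ← Finset.mul_sum, h0] at hn'
    push_cast; linear_combination hn'
  obtain ⟨b, hb'⟩ := exists_int_of_mul (IsIntegral.sum _ fun i _ =>
    (psi_isIntegral (-i)).mul (char_isIntegral hβ ⟨_, hm i⟩)) (by norm_num) h2
  rw [hb'] at h2
  have h3 : 7 * b = 11 * n := by exact_mod_cast h2
  rw [sum_zmod_eq_ne, neg_zero, psi_zero, xp_zero, deg_eq, hd, one_mul] at hn'
  have h4 : ‖∑ i : {i : ZMod 11 // i ≠ 0}, psi 11 (-i.1) * E.1 (xp y i.1)‖ ≤ 20 := by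
    refine (norm_sum_le _ _).trans ((Finset.sum_le_card_nsmul _ _ 2 fun i _ => ?_).trans ?_)
    · rw [norm_mul, show ‖psi 11 (-i.1)‖ = 1 from AddChar.norm_apply _ _, one_mul]
      exact hb i i.2
    · rw [Finset.card_univ, show Fintype.card {i : ZMod 11 // i ≠ 0} = 10 by decide]
      norm_num
  rw [show ∑ i : {i : ZMod 11 // i ≠ 0}, psi 11 (-i.1) * E.1 (xp y i.1) = ((11 * n - 24 : ℤ) : ℂ) by
    push_cast at hn' ⊢; linear_combination hn', Complex.norm_intCast] at h4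
  have h5 : |(11 * n - 24 : ℤ)| ≤ 20 := by exact_mod_cast h4
  rw [abs_le] at h5
  omega

theorem main [IsSimpleGroup G] (L : Lx x) (k : DefOne 11 y) : ¬ 7 ∣ Nat.card k.V := fun h7 => by
  obtain ⟨u, hu, hu7⟩ := exists_mem_V k 7 h7
  have h : DefOne 7 u := ⟨hu7, by rw [L.hN]; norm_num⟩
  have hy : y ∈ h.V := h.mem_V'.2 ⟨mem_Cx.2 (mem_Cx.1 (k.V_le hu)).symm, by rw [k.ord]; decide⟩
  have hV : h.V ≠ ⊥ := fun e => k.ne_one (by rwa [e, mem_bot] at hy)
  have h11 : 11 ∣ Nat.card h.V := k.ord ▸ orderOf_dvd_natCard h.V hy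
  obtain ⟨a1, a2, -, a4, a5⟩ := loc_num (L23.nc L.hN) h (m := 34974720) L.hN
  have hi : (Cx u).index ∣ 3179520 := by
    obtain ⟨w, hw⟩ := h11
    refine ⟨w, Nat.eq_of_mul_eq_mul_left (by norm_num : 0 < 11) ?_⟩
    rw [h.index_Cx, show 11 * 3179520 = 34974720 from rfl, ← a1, hw]; ring
  obtain ⟨n, hn⟩ : ∃ n, Nat.card h.H = n + 1 := ⟨_, (Nat.succ_pred_eq_of_pos (by omega)).symm⟩
  obtain ⟨T⟩ := exists_gen h hn
  obtain ⟨l1, l2⟩ := T.large (L23.perf L.hN) hV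
  have key : ∀ χ : IrrCharacter G, χ ≠ one1 G → deg χ ∣ (Cx u).index → 2 * 7 < deg χ →
      ∀ s : ℤ, s = 1 ∨ s = -1 → _ := fun χ b1 b2 b3 s hs =>
    chk1 _ (L23.mem_dv ((b2.trans hi).trans (by norm_num)))
      (Nat.mod_eq_zero_of_dvd (b2.trans hi)) b3 (L.hN ▸ deg_sq_le χ) _ (L.xt b1).2.1
      (L.xt b1).2.2.1 s (by simpa using hs)
  have kc := fun j => (key _ (T.ne_one j) (T.dvd j) (l1 j) _ (T.s_eq j)).1
    (Int.emod_eq_zero_of_dvd (T.mod j))
  have kE := key _ (T.X1 _ T.E_mem) T.dvd0 l2 _ T.s0_eq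
  have m0 := T.mod0
  have s1 := T.sum_deg
  have s2 := L.gen_x T (by norm_num)
  have he : ∀ e ∈ dvs 6, 1 < e → e = 2 ∨ e = 3 ∨ e = 6 := by decide
  have he' : n = 1 ∨ n = 2 ∨ n = 5 := by
    have := he _ (mem_dvs (by norm_num) a4) a5
    omega
  rcases he' with rfl | rfl | rfl
  · rw [Fin.sum_univ_one] at s1 s2
    exact chk2 _ (kc 0) _ (kE.2.1 (by push_cast at m0; omega)) s1 s2
  · rw [Fin.sum_univ_two] at s1 s2
    have c := chk3 _ (kc 0) _ (kc 1) _ (kE.2.2 (by push_cast at m0; omega)) s1 s2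
    rw [Prod.mk.injEq] at c
    obtain ⟨β, b1, b2⟩ := T.resE
    have s0 : T.s0 = -1 := by rcases T.s0_eq with e | e <;> rw [e] at c <;> omega
    rw [s0] at c
    refine kill L k hy T.E (T.X1 _ T.E_mem) (by omega) (by omega) b1 fun v => ?_
    rw [b2 v, if_neg (by omega)]; norm_num
  · have kE' := kE.1 (by push_cast at m0; omega)
    have na : ∀ (s : ℤ) (d : ℕ), s = 1 ∨ s = -1 → (s * d).natAbs = d := by
      rintro s d (rfl | rfl) <;> simp
    rcases chk6 _ (L23.mem_dv (hi.trans (by norm_num))) (Nat.mod_eq_zero_of_dvd hi)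
      (by rw [h.index_Cx, hn, Nat.mul_mod, a2]) with c | c
    · have c1 := Finset.sum_nonneg (s := Finset.univ) fun j _ => c _ (kc j) (by
        rw [na _ _ (T.s_eq j)]; exact Nat.mod_eq_zero_of_dvd (T.dvd j))
      have c2 := c _ kE' (by rw [na _ _ T.s0_eq]; exact Nat.mod_eq_zero_of_dvd T.dvd0)
      dsimp only at c1 c2
      omega
    · have c1 : (2 : ℤ) ∣ ∑ j, T.q j := Finset.dvd_sum fun j _ => Int.dvd_of_emod_eq_zero
        (c _ (kc j) (by rw [na _ _ (T.s_eq j)]; exact Nat.mod_eq_zero_of_dvd (T.dvd j)))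
      have c2 : T.q0 % 2 = 0 :=
        c _ kE' (by rw [na _ _ T.s0_eq]; exact Nat.mod_eq_zero_of_dvd T.dvd0)
      omega

end MQ.Lb

namespace MQ
open Cfsg H8

/-- no element of order 77 -/
theorem not_77 {G : Type*} [Group G] [Fintype G] [IsSimpleGroup G] {x y : G}
    (hN : Nat.card G = 244823040) (hx : DefOne 23 x) (vx : hx.V = ⊥) (ex : Nat.card hx.H = 11)
    (k : DefOne 11 y) : ¬ 7 ∣ Nat.card k.V := Lb.main ⟨hN, hx, vx, ex⟩ k

end MQ
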