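import Cfsg.Agent.H8.Blk
import Cfsg.Agent.H8.Count
import Cfsg.Agent.FT.Gal

/-! Frobenius' theorem in character form. -/

set_option autoImplicit false
set_option linter.unusedSectionVars false

namespace MQ.D3
open Cfsg H8 L Subgroup
open scoped ComplexConjugate Classical

section Fr
variable {q : ℕ} [hq : Fact q.Prime]

theorem char_pow' {H : Type*} [Group H] {f : H → ℂ} (h : IsCharacter H f) (n : ℕ) :
    IsCharacter H (f ^ n) := by
  induction n with
  | zero => rw [pow_zero]; exact char_one
  | succ n ih => rw [pow_succ]; exact char_mul ih h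

theorem int_cen {H : Type*} [Group H] [Fintype H] {θ f : H → ℂ} (hθ : IsCharacter H θ)
    (hf : IsCharacter H f) {x : H} (hx : ∀ h, h * x = x * h) :
    IsIntegral ℤ ((∑ h, θ h * f (h * x)) / Nat.card H) := by
  refine char_induction (P := fun f => IsIntegral ℤ ((∑ h, θ h * f (h * x)) / Nat.card H))
    (by simpa using isIntegral_zero) (fun a b ha hb => ?_) (fun ψ hψ => ?_) hf
  · simp only [Pi.add_apply, mul_add, Finset.sum_add_distrib, add_div]
    exact ha.add hb
  · rw [irr_sum_mul_apply_mul hψ (char_isClassFunction hθ)]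
    obtain ⟨n, hn⟩ := char_classInner_nat (char_mul hθ (irr_isCharacter hψ)) char_one
    have h1 : ∑ g, θ g * ψ g = Nat.card H * n := by
      rw [← hn, classInner, ← mul_assoc, mul_inv_cancel₀ card_ne_zero_complex, one_mul]
      simp
    have h2 := irr_isIntegral_central hψ (f := fun g => if g = x then 1 else 0) (fun g h => by
      have : h * g * h⁻¹ = x ↔ g = x := by
        constructor
        · intro e
          have : h * g = h * x := by rw [hx, ← e]; group
          exact mul_left_cancel this
        · rintro rfl; rw [hx]; group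
      simp only [this]) (fun g => by split_ifs; exacts [isIntegral_one, isIntegral_zero])
    simp only [ite_mul, one_mul, zero_mul, Finset.sum_ite_eq', Finset.mem_univ, if_true] at h2
    have h3 : (∑ g, θ g * ψ g) / ψ 1 * ψ x / Nat.card H = n * (ψ x / ψ 1) := by
      rw [h1]; field_simp [card_ne_zero_complex (G := H), irr_apply_one_ne_zero hψ]
    rw [h3]
    exact (isIntegral_algebraMap (R := ℤ) (A := ℂ) (x := (n : ℤ))).mul h2

theorem II_div {a m : ℕ} (hm : ¬ q ∣ m) {z : ℤ} (hz : ((q ^ a : ℕ) : ℤ) ∣ z) :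
    II q ((z : ℂ) / ((q ^ a * m : ℕ) : ℂ)) := by
  obtain ⟨k, rfl⟩ := hz
  have h0 : ((q : ℂ)) ^ a ≠ 0 := pow_ne_zero _ (Nat.cast_ne_zero.mpr hq.out.ne_zero)
  have h1 := (UU_natCast hm).inv.II
  have h2 : (m : ℂ) ≠ 0 := (UU_natCast hm).ne_zero
  have : ((((q ^ a : ℕ) : ℤ) * k : ℤ) : ℂ) / ((q ^ a * m : ℕ) : ℂ) = k * (m : ℂ)⁻¹ := by
    push_cast; field_simp
  rw [this]
  exact (II_intCast k).mul h1

theorem frob1 {H : Type*} [Group H] [Fintype H] {f : H → ℂ} (hf : IsCharacter H f) {x : H}
    (hx : ∀ h, h * x = x * h) :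
    II q ((∑ y, if PElt q y then f (y * x) else 0) / Nat.card H) := by
  obtain ⟨Q⟩ : Nonempty (Sylow q H) := inferInstance
  obtain ⟨a, m, hm, hc, -, -⟩ := exists_card_eq (p := q) (G := H)
  let π : H → ℕ := fun h => Nat.card (MulAction.fixedBy (H ⧸ (Q : Subgroup H)) h)
  have hπ : IsCharacter H (fun h => (π h : ℂ)) := char_perm _
  let N := Nat.totient (q ^ a)
  have hN : 0 < N := Nat.totient_pos.mpr (pow_pos hq.out.pos _)
  have h1 := II_of_isIntegral (p := q) (int_cen (char_pow' hπ N) hf hx)
  have h2 : ∀ y, II q (((if PElt q y then f (y * x) else 0) -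
      ((fun h => (π h : ℂ)) ^ N) y * f (y * x)) / Nat.card H) := fun y => by
    by_cases hy : PElt q y
    · have hc1 : ¬ q ∣ π y := fun hd => by
        have e := MM_char_sub hπ hy
        have e1 : π 1 = (Q : Subgroup H).index := by
          simp only [π, MulAction.fixedBy_one_eq_univ, Nat.card_univ]; rfl
        have : MM q (π 1 : ℂ) := by
          have := (MM_natCast_iff.mpr hd).sub e
          simpa using this
        rw [MM_natCast_iff, e1] at this
        exact Q.not_dvd_index this
      have hcop : (π y).Coprime (q ^ a) :=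
        (((Nat.Prime.coprime_iff_not_dvd hq.out).mpr hc1).symm).pow_right a
      have h3 := (Nat.ModEq.pow_totient hcop).dvd
      have h4 := (II_div hm h3).mul (II_of_isIntegral (p := q) (char_isIntegral hf (y * x)))
      rw [if_pos hy, hc]
      convert h4 using 1
      simp only [Pi.pow_apply, N]; push_cast; ring
    · have : π y = 0 := by
        by_contra h0
        obtain ⟨⟨c, hc⟩⟩ := (Nat.card_ne_zero.mp h0).1
        obtain ⟨g, rfl⟩ := QuotientGroup.mk_surjective c
        have := (smul_mk_eq_iff _ y g).mp hc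
        have := (PElt_of_mem Q.isPGroup' this).conj g
        exact hy (by simpa [mul_assoc] using this)
      rw [if_neg hy]
      simp [this, hN.ne', II_zero]
  have h3 := (II_sum (s := Finset.univ) fun y _ => h2 y).add h1
  rwa [← Finset.sum_div, ← add_div, Finset.sum_sub_distrib, sub_add_cancel] at h3

theorem II_class {G : Type*} [Group G] [Fintype G] {F : G → ℂ} (hF : IsClassFunction G F)
    (h : ∀ x, II q (F x / Nat.card (centralizer ({x} : Set G)))) :
    II q ((∑ x, F x) / Nat.card G) := by
  rw [← Finset.sum_fiberwise (s := Finset.univ) (g := ConjClasses.mk), Finset.sum_div]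
  refine II_sum fun c _ => ?_
  obtain ⟨x, rfl⟩ := ConjClasses.mk_surjective c
  have e : ∑ y with ConjClasses.mk y = ConjClasses.mk x, F y =
      Nat.card {y : G // IsConj x y} * F x := by
    rw [← sum_indicator_mul hF, Finset.sum_filter]
    refine Finset.sum_congr rfl fun y _ => ?_
    have : ConjClasses.mk y = ConjClasses.mk x ↔ IsConj x y := by
      rw [ConjClasses.mk_eq_mk_iff_isConj, isConj_comm]
    by_cases h' : IsConj x y
    · rw [if_pos (this.mpr h'), if_pos h', one_mul]
    · rw [if_neg (mt this.mp h'), if_neg h', zero_mul]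
  rw [e]
  convert h x using 1
  have h1 := card_centralizer_mul_card_conj x
  have h2 : (Nat.card {y : G // IsConj x y} : ℂ) ≠ 0 :=
    Nat.cast_ne_zero.mpr (Nat.card_ne_zero.mpr ⟨⟨⟨x, IsConj.refl x⟩⟩, inferInstance⟩)
  have h3 : (Nat.card (centralizer ({x} : Set G)) : ℂ) ≠ 0 := Nat.cast_ne_zero.mpr Nat.card_pos.ne'
  rw [← h1]; push_cast; field_simp

theorem frob {G : Type*} [Group G] [Fintype G] {p : ℕ} [hp : Fact p.Prime] (hpq : p ≠ q)
    {f : G → ℂ} (hf : IsCharacter G f) : II q ((∑ g, regInd p g * f g) / Nat.card G) := by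
  let T : G → ℂ := fun x => ∑ y, if Reg q x ∧ Reg p x ∧ Commute y x ∧ PElt q y then f (y * x) else 0
  have hR : ∀ u : G, PElt q u → Reg p u := fun u ⟨k, hk⟩ =>
    Reg_of_pow_eq_one (((Nat.coprime_primes hq.out hp.out).mpr hpq.symm).pow_left k) hk
  have h1 : ∑ g, regInd p g * f g = ∑ x, T x := by
    have : ∀ x, T x = ∑ g, if Reg q x ∧ Reg p x ∧ Commute (g * x⁻¹) x ∧ PElt q (g * x⁻¹) then f g
        else 0 := fun x => by
      rw [← Equiv.sum_comp (Equiv.mulRight x)]; simp [T]
    simp only [this]
    rw [Finset.sum_comm]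
    refine Finset.sum_congr rfl fun g _ => ?_
    obtain ⟨u, y, hu, hy, huy, rfl, -, hy'⟩ := exists_decomp (p := q) g
    rw [Finset.sum_eq_single y]
    · have : Reg p (u * y) ↔ Reg p y := ⟨fun h => by
        obtain ⟨k, hk⟩ := hy'
        exact hk ▸ h.zpow k, fun h => (hR u hu).mul h huy⟩
      simp only [regInd, this, mul_inv_cancel_right, hy, huy, hu, and_true, true_and]
      split_ifs <;> simp
    · intro b _ hb
      rw [if_neg]
      rintro ⟨h1, -, h2, h3⟩
      have := ppart_unique h3 h1 h2 hu hy huy (by simp)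
      apply hb
      have e : u * y = u * b := mul_inv_eq_iff_eq_mul.mp this
      exact (mul_left_cancel e).symm
    · simp
  rw [h1]
  refine II_class (fun x c => ?_) fun x => ?_
  · simp only [T]
    rw [← Equiv.sum_comp (MulAut.conj c).toEquiv]
    refine Finset.sum_congr rfl fun y _ => ?_
    have e1 : Commute (c * y * c⁻¹) (c * x * c⁻¹) ↔ Commute y x := by
      constructor
      · intro h; simpa [mul_assoc] using h.conj c⁻¹
      · intro h; exact h.conj c
    have e2 : PElt q (c * y * c⁻¹) ↔ PElt q y :=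
      ⟨fun h => by simpa [mul_assoc] using h.conj c⁻¹, fun h => h.conj c⟩
    have e3 : c * y * c⁻¹ * (c * x * c⁻¹) = c * (y * x) * c⁻¹ := by group
    simp only [MulEquiv.toEquiv_eq_coe, EquivLike.coe_coe, MulAut.conj_apply, Reg_conj, e1, e2, e3,
      char_isClassFunction hf (y * x) c]
  · by_cases hx : Reg q x ∧ Reg p x
    · have h2 := frob1 (q := q) (char_restrict hf (centralizer ({x} : Set G)))
        (x := ⟨x, mem_centralizer_singleton_iff.mpr rfl⟩)
        (fun h => Subtype.ext (mem_centralizer_singleton_iff.mp h.2))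
      convert h2 using 2
      simp only [T, hx, true_and]
      rw [sum_eq_sum_subgroup_add (centralizer ({x} : Set G)), Finset.sum_eq_zero (s := Finset.univ)
        (f := fun g => if g ∈ centralizer ({x} : Set G) then (0 : ℂ) else _), add_zero]
      · refine Finset.sum_congr rfl fun y _ => ?_
        have : Commute (y : G) x := mem_centralizer_singleton_iff.mp y.2
        simp [this, PElt_coe]
      · intro g _
        split_ifs with h3 h4
        · rfl
        · exact (h3 (mem_centralizer_singleton_iff.mpr h4.1)).elim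
        · rfl
    · have : T x = 0 := Finset.sum_eq_zero fun y _ => if_neg fun h => hx ⟨h.1, h.2.1⟩
      simp [this, II_zero]

end Fr

theorem reg_int {G : Type*} [Group G] [Fintype G] (p : ℕ) [hp : Fact p.Prime]
    {f : G → ℂ} (hf : IsCharacter G f) : ∃ a : ℤ, ∑ g, regInd p g * f g = a := by
  have hn : 0 < Nat.card G := Nat.card_pos
  refine FT.exists_int_of_mem_adjoin hn (sum_mem fun g _ => mul_mem ?_ ?_) fun τ _ => ?_
  · unfold regInd; split_ifs; exacts [one_mem _, zero_mem _]
  · obtain ⟨s, h1, -, h3⟩ := char_exists_eigenvalues hf g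
    have e1 := h3 1
    rw [zpow_one] at e1
    rw [e1]
    refine multiset_sum_mem _ fun z hz => ?_
    obtain ⟨w, hw, rfl⟩ := Multiset.mem_map.mp hz
    obtain ⟨c, hc⟩ := orderOf_dvd_natCard g
    exact Algebra.subset_adjoin (by
      rw [Set.mem_ofPred_eq, zpow_one, hc, pow_mul, h1 w hw, one_pow])
  · obtain ⟨k, hk, hτ⟩ := FT.exists_pow_of_aut τ hn
    have h1 : ∀ g, τ (f g) = f (g ^ k) := fun g => by
      obtain ⟨s, h1, -, h3⟩ := char_exists_eigenvalues hf g
      have e1 := h3 1
      have e2 := h3 k
      rw [zpow_one] at e1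
      rw [zpow_natCast] at e2
      rw [e1, e2, map_multiset_sum, Multiset.map_map]
      refine congrArg _ (Multiset.map_congr rfl fun w hw => ?_)
      obtain ⟨c, hc⟩ := orderOf_dvd_natCard g
      simp only [Function.comp, zpow_one, zpow_natCast]
      exact hτ w (by rw [hc, pow_mul, h1 w hw, one_pow])
    rw [map_sum, ← Equiv.sum_comp (powCoprime hk.symm) (fun g => regInd p g * f g)]
    refine Finset.sum_congr rfl fun g _ => ?_
    have h2 : orderOf (g ^ k) = orderOf g :=
      (hk.symm.coprime_dvd_left (orderOf_dvd_natCard g)).orderOf_pow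
    rw [map_mul, h1, powCoprime_apply]
    congr 1
    have h3 : Reg p (g ^ k) ↔ Reg p g := by unfold Reg; rw [h2]
    simp only [regInd, h3]
    split_ifs <;> simp

end MQ.D3
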